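import Mathlib
import Cfsg.Prelude.Def_Classification2
import Cfsg.Agent.H972.LieAt
import Cfsg.Agent.H972.ClassOff
import Cfsg.Agent.H972.AltSmall
import Cfsg.Agent.H956.OffClassical
import Cfsg.Agent.H118.NilpOff
import Cfsg.Agent.H270.NS.GTwoDFour
import Cfsg.Agent.H71.SmallOff
import Cfsg.Agent.S0495

/-!
# Nilpotent subgroups of the simple groups of Lie type (helper972, for S2242)
-/

set_option autoImplicit false

namespace Cfsg.Agent.H972.LieSmall

open Subgroup

theorem small_of {G : Type*} [Group G] [Finite G] [IsSimpleGroup G] (hG : ¬ IsMulCommutative G) {p : ℕ} (hp : p.Prime)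
    (h : Cfsg.IsLieTypeChar p G) (h' : NSm.SmallOff p G) : NSm.Small G := by
  have : Fact p.Prime := ⟨hp⟩
  exact (LieAt.smallAt_of_lie hG h).small h'

theorem small_of_exc {G : Type*} [Group G] [Finite G] [IsSimpleGroup G] (hG : ¬ IsMulCommutative G)
    (h : ∃ p, p.Prime ∧ IsLieTypeChar p G ∧ NSm.SmallOff p G) : NSm.Small G := by
  obtain ⟨p, hp, h1, h2⟩ := h
  exact small_of hG hp h1 h2

/-- the orders `6` and `10` are not prime powers -/
theorem card_cases {F : Type*} [Field F] [Fintype F] (h4 : 4 ≤ Fintype.card F) :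
    Fintype.card F = 4 ∨ Fintype.card F = 5 ∨ Fintype.card F = 7 ∨ Fintype.card F = 9 ∨ Fintype.card F = 8 ∨
      11 ≤ Fintype.card F := by
  obtain ⟨p, hchar⟩ := CharP.exists F
  have hp : p.Prime := CharP.char_is_prime F p
  obtain ⟨n, -, hn⟩ := FiniteField.card F p
  have h6 : Fintype.card F ≠ 6 := by
    intro h
    have h2 : 2 ∣ p ^ (n : ℕ) := by rw [← hn, h]; norm_num
    have h3 : 3 ∣ p ^ (n : ℕ) := by rw [← hn, h]; norm_num
    have h4 := (Nat.prime_dvd_prime_iff_eq Nat.prime_two hp).1 (Nat.prime_two.dvd_of_dvd_pow h2)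
    have h5 := (Nat.prime_dvd_prime_iff_eq Nat.prime_three hp).1 (Nat.prime_three.dvd_of_dvd_pow h3)
    omega
  have h10 : Fintype.card F ≠ 10 := by
    intro h
    have h2 : 2 ∣ p ^ (n : ℕ) := by rw [← hn, h]; norm_num
    have h3 : 5 ∣ p ^ (n : ℕ) := by rw [← hn, h]; norm_num
    have h4 := (Nat.prime_dvd_prime_iff_eq Nat.prime_two hp).1 (Nat.prime_two.dvd_of_dvd_pow h2)
    have h5 := (Nat.prime_dvd_prime_iff_eq Nat.prime_five hp).1 (Nat.prime_five.dvd_of_dvd_pow h3)
    omega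
  omega

theorem small_PSL2_seven {G : Type*} [Group G] [Finite G] [IsSimpleGroup G] (hG : ¬ IsMulCommutative G) {F : Type}
    [Field F] [Fintype F] (hF : Fintype.card F = 7) (e : G ≃* Matrix.ProjectiveSpecialLinearGroup (Fin 2) F) :
    NSm.Small G := by
  obtain ⟨p, hchar⟩ := CharP.exists F
  have hp : Fact p.Prime := ⟨CharP.char_is_prime F p⟩
  have hp7 : p = 7 := by
    obtain ⟨n, -, hn⟩ := FiniteField.card F p
    rw [hF] at hn
    have h1 : p ∣ 7 := by rw [hn]; exact dvd_pow_self p n.2.ne'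
    exact (Nat.prime_dvd_prime_iff_eq hp.1 (by norm_num)).1 h1
  exact small_of hG hp.1 (Or.inl ⟨F, inferInstance, inferInstance, hchar, 2, le_rfl, fun _ => by omega, ⟨e⟩⟩)
    ((ClassOff.off_PSL2_seven hF hp7).congr e.symm)

theorem small_PSL {G : Type*} [Group G] [Finite G] [IsSimpleGroup G] (hG : ¬ IsMulCommutative G) (h : Cfsg.IsPSL G) :
    NSm.Small G := by
  obtain ⟨F, _, _, n, hn, hn2, ⟨e⟩⟩ := h
  obtain ⟨p, hchar⟩ := CharP.exists F
  have hp : Fact p.Prime := ⟨CharP.char_is_prime F p⟩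
  have hlie : Cfsg.IsLieTypeChar p G := Or.inl ⟨F, inferInstance, inferInstance, hchar, n, hn, hn2, ⟨e⟩⟩
  have hq1 : 2 ≤ Fintype.card F := Fintype.one_lt_card
  rcases Nat.lt_or_ge n 3 with h3 | h3
  · obtain rfl : n = 2 := by omega
    rcases card_cases (hn2 rfl) with h | h | h | h | h | h
    · exact (AltSmall.small_PSL2_four h).congr e.symm
    · exact (AltSmall.small_PSL2_five h).congr e.symm
    · exact small_PSL2_seven hG h e
    · exact (AltSmall.small_PSL2_nine h).congr e.symm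
    · exact small_of hG hp.1 hlie ((ClassOff.off_PSL2 (Or.inl h)).congr e.symm)
    · exact small_of hG hp.1 hlie ((ClassOff.off_PSL2 (Or.inr h)).congr e.symm)
  · rcases Nat.lt_or_ge (Fintype.card F) 3 with hq | hq
    · have hq2 : Fintype.card F = 2 := by omega
      rcases Nat.lt_or_ge n 4 with h4 | h4
      · obtain rfl : n = 3 := by omega
        have hcard : Nat.card G = 168 := by
          have h1 := S0243.result (F := F) hq2 3 (by norm_num)
          have h2 : ∏ i : Fin 3, (2 ^ 3 - 2 ^ (i : ℕ)) = 168 := by decide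
          rw [h2] at h1
          rw [Nat.card_congr e.toEquiv]
          norm_num at h1
          exact h1
        have : Fact (Nat.Prime 7) := ⟨by norm_num⟩
        obtain ⟨e'⟩ := S0495.result hcard (F := ZMod 7) (ZMod.card 7)
        exact small_PSL2_seven hG (ZMod.card 7) e'
      · exact small_of hG hp.1 hlie ((ClassOff.off_PSL_two h4 hq2).congr e.symm)
    · exact small_of hG hp.1 hlie ((ClassOff.off_PSL h3 hq).congr e.symm)

theorem small_PSp {G : Type*} [Group G] [Finite G] [IsSimpleGroup G] (hG : ¬ IsMulCommutative G) (h : Cfsg.IsPSp G) :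
    NSm.Small G := by
  obtain ⟨F, _, _, m, hm, hm2, ⟨e⟩⟩ := h
  obtain ⟨p, hchar⟩ := CharP.exists F
  have hp : Fact p.Prime := ⟨CharP.char_is_prime F p⟩
  have hlie : Cfsg.IsLieTypeChar p G := Or.inr (Or.inl ⟨F, inferInstance, inferInstance, hchar, m, hm, hm2, ⟨e⟩⟩)
  rcases Nat.lt_or_ge m 3 with h3 | h3
  · obtain rfl : m = 2 := by omega
    exact small_of hG hp.1 hlie ((H956.OffClassical.off_PSp (hm2 rfl) hp.1 hchar).congr e.symm)
  · exact small_of hG hp.1 hlie ((ClassOff.off_PSp h3).congr e.symm)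

theorem small_PSU {G : Type*} [Group G] [Finite G] [IsSimpleGroup G] (hG : ¬ IsMulCommutative G) (h : Cfsg.IsPSU G) :
    NSm.Small G := by
  obtain ⟨F, _, _, n, q, hF, hn, hnq, ⟨e⟩⟩ := h
  obtain ⟨p, hchar⟩ := CharP.exists F
  have hp : Fact p.Prime := ⟨CharP.char_is_prime F p⟩
  have hlie : Cfsg.IsLieTypeChar p G := Or.inr (Or.inr (Or.inl
    ⟨F, inferInstance, inferInstance, hchar, n, q, hF, hn, hnq, ⟨e⟩⟩))
  rcases Nat.lt_or_ge n 6 with h6 | h6
  · exact small_of hG hp.1 hlie ((H956.OffClassical.off_PSU hF (by omega) hnq hp.1 hchar).congr e.symm)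
  · exact small_of hG hp.1 hlie ((ClassOff.off_PSU hF h6).congr e.symm)

theorem small_POmegaOdd {G : Type*} [Group G] [Finite G] [IsSimpleGroup G] (hG : ¬ IsMulCommutative G)
    (h : Cfsg.IsPOmegaOdd G) : NSm.Small G := by
  obtain ⟨F, _, _, m, hm, hodd, ⟨e⟩⟩ := h
  obtain ⟨p, hchar⟩ := CharP.exists F
  have hp : Fact p.Prime := ⟨CharP.char_is_prime F p⟩
  exact small_of hG hp.1 (Or.inr (Or.inr (Or.inr (Or.inl ⟨F, inferInstance, inferInstance, hchar, m, hm, hodd, ⟨e⟩⟩))))
    ((ClassOff.off_POmegaOdd hm hodd).congr e.symm)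

theorem small_POmegaPlus {G : Type*} [Group G] [Finite G] [IsSimpleGroup G] (hG : ¬ IsMulCommutative G)
    (h : Cfsg.IsPOmegaPlus G) : NSm.Small G := by
  obtain ⟨F, _, _, m, hm, ⟨e⟩⟩ := h
  obtain ⟨p, hchar⟩ := CharP.exists F
  have hp : Fact p.Prime := ⟨CharP.char_is_prime F p⟩
  exact small_of hG hp.1 (Or.inr (Or.inr (Or.inr (Or.inr (Or.inl
    ⟨F, inferInstance, inferInstance, hchar, m, hm, ⟨e⟩⟩)))))
    ((ClassOff.off_POmegaPlus hm).congr e.symm)

theorem small_POmegaMinus {G : Type*} [Group G] [Finite G] [IsSimpleGroup G] (hG : ¬ IsMulCommutative G)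
    (h : Cfsg.IsPOmegaMinus G) : NSm.Small G := by
  obtain ⟨F, _, _, m, a, b, hm, hab, ⟨e⟩⟩ := h
  obtain ⟨p, hchar⟩ := CharP.exists F
  have hp : Fact p.Prime := ⟨CharP.char_is_prime F p⟩
  exact small_of hG hp.1 (Or.inr (Or.inr (Or.inr (Or.inr (Or.inr (Or.inl
    ⟨F, inferInstance, inferInstance, hchar, m, a, b, hm, hab, ⟨e⟩⟩))))))
    ((ClassOff.off_POmegaMinus hm a b hab).congr e.symm)

end Cfsg.Agent.H972.LieSmall
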